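import Groth.Agent.Gaga.H981.Scv
import Mathlib.Topology.ContinuousMap.Bounded.ArzelaAscoli
import Mathlib.Topology.ContinuousMap.Bounded.Normed
import Mathlib.Analysis.Normed.Operator.Compact.Basic

/-!
# Banach spaces of bounded holomorphic functions

For a subset `U` of a complex normed space `E`, `BH U` is the space of bounded continuous functions
on `U` which are restrictions of functions complex differentiable on `U`.

* `BH.isClosed` : `BH U` is closed in the bounded continuous functions (`U` open), so complete;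
* `BH.res` : restriction;
* `BH.isCompactOperator_res` : restriction to `V ⊆ K ⊆ U`, `K` compact, is compact (Montel);
* `BH.isClosed_order` : vanishing to order `k` at a point is a closed condition.
-/

set_option autoImplicit false
set_option linter.dupNamespace false

open Filter Metric Set Topology
open scoped BoundedContinuousFunction

noncomputable section

namespace Groth.Agent.Gaga.H981.BH

open Groth.Agent.Gaga.H981.Scv

variable {E : Type*} [NormedAddCommGroup E] [NormedSpace ℂ E]

/-- Bounded holomorphic functions on a subset `U` of a complex normed space. -/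
def BH (U : Set E) : Submodule ℂ (U →ᵇ ℂ) where
  carrier := {f | ∃ F : E → ℂ, DifferentiableOn ℂ F U ∧ ∀ x : U, f x = F x}
  add_mem' := by
    rintro f g ⟨F, hF, hFf⟩ ⟨G, hG, hGg⟩
    exact ⟨F + G, hF.add hG, fun x => by simp [hFf, hGg]⟩
  zero_mem' := ⟨0, differentiableOn_const 0, fun x => by simp⟩
  smul_mem' := by
    rintro c f ⟨F, hF, hFf⟩
    exact ⟨c • F, hF.const_smul c, fun x => by simp [hFf]⟩

namespace BH

variable {U V W : Set E}

/-- The extension by zero of a bounded holomorphic function. -/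
def ext (f : BH U) : E → ℂ := by
  classical
  exact fun x => if h : x ∈ U then f.1 ⟨x, h⟩ else 0

lemma ext_of_mem (f : BH U) {x : E} (h : x ∈ U) : ext f x = f.1 ⟨x, h⟩ := dif_pos h

@[simp] lemma ext_coe (f : BH U) (x : U) : ext f x = f.1 x := ext_of_mem f x.2

lemma ext_of_notMem (f : BH U) {x : E} (h : x ∉ U) : ext f x = 0 := dif_neg h

lemma differentiableOn_ext (f : BH U) : DifferentiableOn ℂ (ext f) U := by
  obtain ⟨F, hF, hFf⟩ := f.2
  refine hF.congr fun x hx => ?_
  rw [ext_of_mem f hx]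
  exact hFf ⟨x, hx⟩

lemma norm_ext_le (f : BH U) (x : E) : ‖ext f x‖ ≤ ‖f‖ := by
  by_cases h : x ∈ U
  · rw [ext_of_mem f h]
    exact f.1.norm_coe_le_norm _
  · rw [ext_of_notMem f h, norm_zero]
    exact norm_nonneg _

lemma ext_add (f g : BH U) : ext (f + g) = ext f + ext g := by
  funext x
  by_cases h : x ∈ U
  · simp [ext_of_mem _ h]
  · simp [ext_of_notMem _ h]

lemma ext_smul (c : ℂ) (f : BH U) : ext (c • f) = c • ext f := by
  funext x
  by_cases h : x ∈ U
  · simp [ext_of_mem _ h]
  · simp [ext_of_notMem _ h]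

lemma ext_zero : ext (0 : BH U) = 0 := by
  funext x
  by_cases h : x ∈ U
  · simp [ext_of_mem _ h]
  · simp [ext_of_notMem _ h]

lemma ext_sub (f g : BH U) : ext (f - g) = ext f - ext g := by
  funext x
  by_cases h : x ∈ U
  · simp [ext_of_mem _ h]
  · simp [ext_of_notMem _ h]

/-- Extension by zero, as a linear map. -/
def extₗ (U : Set E) : BH U →ₗ[ℂ] (E → ℂ) where
  toFun := ext
  map_add' := ext_add
  map_smul' := ext_smul

@[simp] lemma extₗ_apply (f : BH U) : extₗ U f = ext f := rfl

lemma eq_of_eqOn {f g : BH U} (h : EqOn (ext f) (ext g) U) : f = g := by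
  apply Subtype.ext
  ext x
  rw [← ext_coe f, ← ext_coe g]
  exact h x.2

/-- The bounded holomorphic function defined by a function which is differentiable and bounded
on `U`. -/
def mk (F : E → ℂ) (hF : DifferentiableOn ℂ F U) (C : ℝ) (hC : ∀ x ∈ U, ‖F x‖ ≤ C) : BH U :=
  ⟨BoundedContinuousFunction.ofNormedAddCommGroup (fun x : U => F x)
    (continuousOn_iff_continuous_domRestrict.1 hF.continuousOn) C fun x => hC x x.2,
    F, hF, fun _ => rfl⟩

@[simp] lemma mk_apply (F : E → ℂ) (hF : DifferentiableOn ℂ F U) (C : ℝ)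
    (hC : ∀ x ∈ U, ‖F x‖ ≤ C) (x : U) : (mk F hF C hC).1 x = F x := rfl

lemma ext_mk (F : E → ℂ) (hF : DifferentiableOn ℂ F U) (C : ℝ)
    (hC : ∀ x ∈ U, ‖F x‖ ≤ C) {x : E} (hx : x ∈ U) : ext (mk F hF C hC) x = F x := by
  rw [ext_of_mem _ hx]
  rfl

lemma norm_le {f : BH U} {C : ℝ} (h0 : 0 ≤ C) : ‖f‖ ≤ C ↔ ∀ x ∈ U, ‖ext f x‖ ≤ C := by
  constructor
  · intro h x _
    exact (norm_ext_le f x).trans h
  · intro h
    refine (BoundedContinuousFunction.norm_le (f := f.1) h0).2 fun x => ?_
    rw [← ext_coe]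
    exact h x x.2

lemma norm_mk_le (F : E → ℂ) (hF : DifferentiableOn ℂ F U) (C : ℝ)
    (hC : ∀ x ∈ U, ‖F x‖ ≤ C) (h0 : 0 ≤ C) : ‖mk F hF C hC‖ ≤ C :=
  (norm_le h0).2 fun x hx => by rw [ext_mk F hF C hC hx]; exact hC x hx

/-- `BH U` is closed in the space of bounded continuous functions, for `U` open. -/
theorem isClosed (hU : IsOpen U) : IsClosed (BH U : Set (U →ᵇ ℂ)) := by
  refine isClosed_of_closure_subset fun f hf => ?_
  obtain ⟨g, hg, hgf⟩ := mem_closure_iff_seq_limit.1 hf
  classical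
  let F : E → ℂ := fun x => if h : x ∈ U then f ⟨x, h⟩ else 0
  have hFf : ∀ x : U, f x = F x := fun x => by simp [F]
  refine ⟨F, ?_, hFf⟩
  refine differentiableOn_of_tendstoUniformlyOn (l := atTop)
    (F := fun n => ext ⟨g n, hg n⟩) hU (fun n => differentiableOn_ext _) ?_
  rw [BoundedContinuousFunction.tendsto_iff_tendstoUniformly] at hgf
  rw [tendstoUniformlyOn_iff_tendstoUniformly_comp_coe]
  have e1 : (fun n => ext ⟨g n, hg n⟩ ∘ ((↑) : U → E)) = fun n => ⇑(g n) := by
    funext n x
    exact ext_coe ⟨g n, hg n⟩ x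
  have e2 : F ∘ ((↑) : U → E) = f := by
    funext x
    exact (hFf x).symm
  rw [e2]
  change TendstoUniformly (fun n => ext ⟨g n, hg n⟩ ∘ ((↑) : U → E)) f atTop
  rw [e1]
  exact hgf

theorem completeSpace (hU : IsOpen U) : CompleteSpace (BH U) :=
  (isClosed hU).completeSpace_coe

/-- Restriction of bounded holomorphic functions. -/
def res (h : V ⊆ U) : BH U →L[ℂ] BH V :=
  LinearMap.mkContinuous
    { toFun := fun f => ⟨f.1.compContinuous ⟨Set.inclusion h, continuous_inclusion h⟩, by
        obtain ⟨F, hF, hFf⟩ := f.2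
        exact ⟨F, hF.mono h, fun x => hFf ⟨x, h x.2⟩⟩⟩
      map_add' := fun _ _ => rfl
      map_smul' := fun _ _ => rfl } 1 fun f => by
    rw [one_mul]
    refine (BoundedContinuousFunction.norm_le (norm_nonneg _)).2 fun x => ?_
    exact f.1.norm_coe_le_norm _

@[simp] lemma res_apply (h : V ⊆ U) (f : BH U) (x : V) : (res h f).1 x = f.1 ⟨x, h x.2⟩ := rfl

lemma ext_res (h : V ⊆ U) (f : BH U) {x : E} (hx : x ∈ V) : ext (res h f) x = ext f x := by
  rw [ext_of_mem _ hx, ext_of_mem _ (h hx)]
  rfl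

lemma norm_res_le (h : V ⊆ U) (f : BH U) : ‖res h f‖ ≤ ‖f‖ := by
  rw [norm_le (norm_nonneg _)]
  intro x hx
  rw [ext_res h f hx]
  exact norm_ext_le f x

lemma res_res (h : V ⊆ U) (h' : W ⊆ V) (f : BH U) : res h' (res h f) = res (h'.trans h) f := rfl

/-- Montel's theorem: restriction to `V`, contained in a compact subset `K` of `U`, is a compact
operator. -/
theorem isCompactOperator_res (hU : IsOpen U) (hV : IsOpen V) {K : Set E} (hK : IsCompact K)
    (hVK : V ⊆ K) (hKU : K ⊆ U) : IsCompactOperator (res (hVK.trans hKU) : BH U → BH V) := by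
  have : CompactSpace K := isCompact_iff_compactSpace.1 hK
  -- restriction to `K`
  let r : BH U → (K →ᵇ ℂ) := fun f =>
    f.1.compContinuous ⟨Set.inclusion hKU, continuous_inclusion hKU⟩
  let A : Set (K →ᵇ ℂ) := r '' closedBall 0 1
  have hA : IsCompact (closure A) := by
    refine BoundedContinuousFunction.arzela_ascoli (closedBall (0 : ℂ) 1) (isCompact_closedBall _ _)
      A ?_ ?_
    · rintro _ x ⟨f, hf, rfl⟩
      rw [mem_closedBall, dist_zero_right] at hf ⊢
      exact (f.1.norm_coe_le_norm _).trans hf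
    · intro x
      obtain ⟨R, hR, hRU⟩ := Metric.isOpen_iff.1 hU x (hKU x.2)
      rw [Metric.equicontinuousAt_iff]
      intro ε hε
      refine ⟨min R (ε * R / 2), by positivity, ?_⟩
      rintro y hy ⟨_, f, hf, rfl⟩
      rw [mem_closedBall, dist_zero_right] at hf
      have hyR : (y : E) ∈ ball (x : E) R := by
        rw [mem_ball]
        exact (lt_min_iff.1 hy).1
      have h1 := dist_le (F := ext f) (M := 1) hR ((differentiableOn_ext f).mono hRU)
        (fun z _ => (norm_ext_le f z).trans hf) hyR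
      rw [ext_of_mem f (hKU x.2), ext_of_mem f (hKU y.2)] at h1
      change dist (f.1 ⟨x, hKU x.2⟩) (f.1 ⟨y, hKU y.2⟩) < ε
      rw [dist_comm]
      refine h1.trans_lt ?_
      have h2 : dist (y : E) x < ε * R / 2 := (lt_min_iff.1 hy).2
      calc 2 * 1 / R * dist (y : E) x < 2 * 1 / R * (ε * R / 2) := by gcongr
        _ = ε := by field_simp
  -- restriction from `K` to `V`
  let ρ : (K →ᵇ ℂ) → (V →ᵇ ℂ) := fun f =>
    f.compContinuous ⟨Set.inclusion hVK, continuous_inclusion hVK⟩
  have hρ : Continuous ρ := BoundedContinuousFunction.continuous_compContinuous _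
  have hC : IsCompact ((fun f : BH V => f.1) ⁻¹' (ρ '' closure A)) :=
    (isClosed hV).isClosedEmbedding_subtypeVal.isCompact_preimage (hA.image hρ)
  rw [isCompactOperator_iff_exists_mem_nhds_image_subset_compact]
  refine ⟨closedBall 0 1, closedBall_mem_nhds _ one_pos, _, hC, ?_⟩
  rintro _ ⟨f, hf, rfl⟩
  exact ⟨r f, subset_closure ⟨f, hf, rfl⟩, rfl⟩

/-- Vanishing to order `k` at a point `x` of `U`, in terms of bounds. -/
theorem isBigO_iff (f : BH U) {x : E} {R : ℝ} (hR : 0 < R) (hRU : ball x R ⊆ U) (k : ℕ) :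
    (ext f =O[𝓝 x] fun y => ‖y - x‖ ^ k) ↔
      ∀ z ∈ ball x R, ‖ext f z‖ ≤ ‖f‖ * (‖z - x‖ / R) ^ k :=
  ⟨fun h _ hz => norm_le_of_isBigO ((differentiableOn_ext f).mono hRU)
    (fun z _ => norm_ext_le f z) h hz, fun h => isBigO_of_norm_le hR h⟩

/-- Evaluation is continuous. -/
theorem continuous_ext_apply (x : E) : Continuous fun f : BH U => ext f x := by
  by_cases h : x ∈ U
  · simp only [ext_of_mem _ h]
    exact (continuous_eval_const (⟨x, h⟩ : U)).comp continuous_subtype_val
  · simp only [ext_of_notMem _ h]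
    exact continuous_const

/-- Vanishing to order `k` at a point of `U` is a closed condition. -/
theorem isClosed_order (hU : IsOpen U) {x : E} (hx : x ∈ U) (k : ℕ) :
    IsClosed {f : BH U | ext f =O[𝓝 x] fun y => ‖y - x‖ ^ k} := by
  obtain ⟨R, hR, hRU⟩ := Metric.isOpen_iff.1 hU x hx
  have : {f : BH U | ext f =O[𝓝 x] fun y => ‖y - x‖ ^ k} =
      ⋂ z ∈ ball x R, {f : BH U | ‖ext f z‖ ≤ ‖f‖ * (‖z - x‖ / R) ^ k} := by
    ext f
    simp only [mem_ofPred_eq, mem_iInter]
    exact isBigO_iff f hR hRU k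
  rw [this]
  refine isClosed_biInter fun z _ => isClosed_le ?_ ?_
  · exact (continuous_ext_apply z).norm
  · exact continuous_norm.mul continuous_const

end BH

end Groth.Agent.Gaga.H981.BH
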