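import Groth.Agent.Gaga.H981.ExtLin
import Groth.Agent.CohtopA.ModExt
import Groth.Agent.Gaga.H335.Chart

/-!
# Complex vector space structure on sections and on the cohomology of an `O_{X^an}`-module
-/

set_option autoImplicit false

open AlgebraicGeometry CategoryTheory CategoryTheory.Limits TopologicalSpace Opposite Topology Abelian

noncomputable section

namespace Groth.Agent.Gaga.H981.HMod

open Groth.Agent.Gaga.H975.ModSec Groth.Agent.Gaga.H335.Chart

/-- The functor "underlying abelian sheaf" on `O_{X^an}`-modules. -/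
abbrev toAbA (X : Scheme.{0}) [X.Over An.SC] :
    An.AnMod X ⥤ Sheaf (Opens.grothendieckTopology (An.top X)) AddCommGrpCat.{0} :=
  SheafOfModules.toSheaf (An.holRing X)

variable {X : Scheme.{0}} [X.Over An.SC]

/-! ### Sections -/

instance secMod (N : An.AnMod X) (V : Opens (An.top X)) : Module ℂ (Sec N V) :=
  Module.compHom (Sec N V) (algebraMap ℂ (O (An.hol X) V))

lemma smul_def (N : An.AnMod X) {V : Opens (An.top X)} (c : ℂ) (s : Sec N V) :
    c • s = algebraMap ℂ (O (An.hol X) V) c • s := rfl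

instance secTower (N : An.AnMod X) (V : Opens (An.top X)) :
    IsScalarTower ℂ (O (An.hol X) V) (Sec N V) :=
  ⟨fun c a s => by rw [smul_def, Algebra.smul_def, mul_smul]⟩

lemma resO_algebraMap {V W : Opens (An.top X)} (h : W ≤ V) (c : ℂ) :
    resO h (algebraMap ℂ (O (An.hol X) V) c) = algebraMap ℂ (O (An.hol X) W) c := rfl

/-- Restriction of sections as a `ℂ`-linear map. -/
def resL (N : An.AnMod X) {V W : Opens (An.top X)} (h : W ≤ V) : Sec N V →ₗ[ℂ] Sec N W where
  toFun := res N h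
  map_add' := map_add _
  map_smul' c s := by
    rw [smul_def, res_smul, resO_algebraMap]
    rfl

@[simp] lemma resL_apply (N : An.AnMod X) {V W : Opens (An.top X)} (h : W ≤ V) (s : Sec N V) :
    resL N h s = res N h s := rfl

/-- Components of a morphism as `ℂ`-linear maps. -/
def appL {N N' : An.AnMod X} (φ : N ⟶ N') (V : Opens (An.top X)) : Sec N V →ₗ[ℂ] Sec N' V where
  toFun := app φ V
  map_add' := map_add _
  map_smul' c s := by
    rw [smul_def, map_smul]
    rfl

@[simp] lemma appL_apply {N N' : An.AnMod X} (φ : N ⟶ N') (V : Opens (An.top X)) (s : Sec N V) :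
    appL φ V s = app φ V s := rfl

/-! ### Scalars as endomorphisms -/

/-- Multiplication by a constant. -/
def sc (N : An.AnMod X) (c : ℂ) : N ⟶ N :=
  homMk (fun V => DistribSMul.toAddMonoidHom (Sec N V) c)
    (fun V r m => by
      change c • (r • m) = r • (c • m)
      rw [smul_def, smul_def, smul_smul, smul_smul, mul_comm])
    (fun V W h m => by
      change c • res N h m = res N h (c • m)
      rw [smul_def, smul_def, res_smul, resO_algebraMap])

lemma app_sc (N : An.AnMod X) (c : ℂ) (V : Opens (An.top X)) (m : Sec N V) :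
    app (sc N c) V m = c • m := rfl

lemma sc_comp {N N' : An.AnMod X} (φ : N ⟶ N') (c : ℂ) : sc N c ≫ φ = φ ≫ sc N' c := by
  apply hom_ext
  intro V m
  rw [app_comp, app_comp, app_sc, app_sc]
  exact map_smul (appL φ V) c m

lemma app_add {N N' : An.AnMod X} (φ ψ : N ⟶ N') (V : Opens (An.top X)) (m : Sec N V) :
    app (φ + ψ) V m = app φ V m + app ψ V m := rfl

lemma app_zero {N N' : An.AnMod X} (V : Opens (An.top X)) (m : Sec N V) :
    app (0 : N ⟶ N') V m = 0 := rfl

instance toAbA_additive : (toAbA X).Additive where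
  map_add := rfl

/-- The action of the constants on the underlying abelian sheaf. -/
def σ (N : An.AnMod X) : ℂ →+* End (An.AnMod.toAb N) where
  toFun c := (toAbA X).map (sc N c)
  map_one' := by
    have : sc N 1 = 𝟙 N := hom_ext fun V m => by rw [app_sc, one_smul]; rfl
    rw [this]
    exact (toAbA X).map_id N
  map_mul' c d := by
    have : sc N (c * d) = sc N d ≫ sc N c := hom_ext fun V m => by
      rw [app_sc, mul_smul]; rfl
    rw [this]
    exact (toAbA X).map_comp _ _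
  map_zero' := by
    have : sc N 0 = 0 := hom_ext fun V m => by rw [app_sc, zero_smul]; rfl
    rw [this]
    exact (toAbA X).map_zero _ _
  map_add' c d := by
    have : sc N (c + d) = sc N c + sc N d := hom_ext fun V m => by
      rw [app_add, app_sc, app_sc, app_sc, add_smul]
    rw [this]
    exact (toAbA X).map_add

/-! ### Cohomology -/

/-- The coefficient object `ℤ`. -/
abbrev ZZ (X : Scheme.{0}) [X.Over An.SC] : Sheaf (Opens.grothendieckTopology (An.top X)) AddCommGrpCat.{0} :=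
  (constantSheaf (Opens.grothendieckTopology (An.top X)) AddCommGrpCat.{0}).obj (AddCommGrpCat.of (ULift ℤ))

/-- `H^n(X(ℂ), N)` is a complex vector space. -/
instance hMod (N : An.AnMod X) (n : ℕ) : Module ℂ (An.AnMod.H N n) := ExtLin.mod (ZZ X) (σ N) n

lemma hsmul_def (N : An.AnMod X) (n : ℕ) (c : ℂ) (e : An.AnMod.H N n) :
    c • e = e.comp (Ext.mk₀ ((toAbA X).map (sc N c))) (add_zero n) := rfl

lemma hsmul_def' (N : An.AnMod X) (n : ℕ) (c : ℂ) (e : An.AnMod.H N n) :
    c • e = ExtLin.map (ZZ X) ((toAbA X).map (sc N c)) n e := rfl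

/-- The map on cohomology induced by a morphism. -/
def Hmap {N N' : An.AnMod X} (φ : N ⟶ N') (n : ℕ) : An.AnMod.H N n →ₗ[ℂ] An.AnMod.H N' n where
  toFun := ExtLin.map (ZZ X) ((toAbA X).map φ) n
  map_add' := map_add _
  map_smul' c e := by
    rw [hsmul_def', RingHom.id_apply, hsmul_def']
    refine ExtLin.map_comm (ZZ X) ?_ n e
    rw [← Functor.map_comp, ← Functor.map_comp, sc_comp]

lemma Hmap_apply {N N' : An.AnMod X} (φ : N ⟶ N') (n : ℕ) (e : An.AnMod.H N n) :
    Hmap φ n e = e.comp (Ext.mk₀ ((toAbA X).map φ)) (add_zero n) := rfl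

lemma Hmap_eq {N N' : An.AnMod X} (φ : N ⟶ N') (n : ℕ) (e : An.AnMod.H N n) :
    Hmap φ n e = ExtLin.map (ZZ X) ((toAbA X).map φ) n e := rfl

lemma Hmap_eq_sheafHmap {N N' : An.AnMod X} (φ : N ⟶ N') (n : ℕ) (e : An.AnMod.H N n) :
    Hmap φ n e = Sheaf.H.map ((toAbA X).map φ) n e := rfl

lemma Hmap_id (N : An.AnMod X) (n : ℕ) : Hmap (𝟙 N) n = LinearMap.id := by
  ext e
  rw [Hmap_eq, CategoryTheory.Functor.map_id]
  exact ExtLin.map_id _ n e

lemma Hmap_comp {N N' N'' : An.AnMod X} (φ : N ⟶ N') (ψ : N' ⟶ N'') (n : ℕ) :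
    Hmap (φ ≫ ψ) n = (Hmap ψ n).comp (Hmap φ n) := by
  ext e
  rw [Hmap_eq, Functor.map_comp]
  exact ExtLin.map_comp _ _ _ n e

lemma Hmap_comp_apply {N N' N'' : An.AnMod X} (φ : N ⟶ N') (ψ : N' ⟶ N'') (n : ℕ)
    (e : An.AnMod.H N n) : Hmap (φ ≫ ψ) n e = Hmap ψ n (Hmap φ n e) := by
  rw [Hmap_comp]; rfl

lemma Hmap_add {N N' : An.AnMod X} (φ ψ : N ⟶ N') (n : ℕ) (e : An.AnMod.H N n) :
    Hmap (φ + ψ) n e = Hmap φ n e + Hmap ψ n e := by
  rw [Hmap_eq, Functor.map_add]
  exact ExtLin.map_add _ _ _ n e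

lemma Hmap_zero (N N' : An.AnMod X) (n : ℕ) (e : An.AnMod.H N n) : Hmap (0 : N ⟶ N') n e = 0 := by
  rw [Hmap_eq, Functor.map_zero]
  exact ExtLin.map_zero' _ n e

lemma Hmap_sc (N : An.AnMod X) (c : ℂ) (n : ℕ) (e : An.AnMod.H N n) : Hmap (sc N c) n e = c • e := rfl

/-- Isomorphic modules have isomorphic cohomology. -/
def Hiso {N N' : An.AnMod X} (e : N ≅ N') (n : ℕ) : An.AnMod.H N n ≃ₗ[ℂ] An.AnMod.H N' n :=
  LinearEquiv.ofLinearMap (Hmap e.hom n) (Hmap e.inv n)
    (by rw [← Hmap_comp, e.inv_hom_id, Hmap_id]) (by rw [← Hmap_comp, e.hom_inv_id, Hmap_id])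

/-! ### Exact sequences -/

instance toAbA_preservesFiniteColimits : PreservesFiniteColimits (toAbA X) :=
  Groth.Agent.CohtopA.ModExt.toSheaf_preservesFiniteColimits (An.holRing X)

lemma shortExact_toAbA {S : ShortComplex (An.AnMod X)} (hS : S.ShortExact) :
    (S.map (toAbA X)).ShortExact := hS.map_of_exact _

section SES

variable {S : ShortComplex (An.AnMod X)} (hS : S.ShortExact)

/-- The endomorphism of a short complex given by a constant. -/
def scS (S : ShortComplex (An.AnMod X)) (c : ℂ) : S ⟶ S where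
  τ₁ := sc _ c
  τ₂ := sc _ c
  τ₃ := sc _ c
  comm₁₂ := sc_comp _ c
  comm₂₃ := sc_comp _ c

/-- The connecting map. -/
def δ (n : ℕ) : An.AnMod.H S.X₃ n →ₗ[ℂ] An.AnMod.H S.X₁ (n + 1) where
  toFun := ExtLin.δ (ZZ X) (shortExact_toAbA hS) n
  map_add' := map_add _
  map_smul' c e := by
    rw [hsmul_def', RingHom.id_apply, hsmul_def']
    exact ExtLin.δ_nat (ZZ X) (shortExact_toAbA hS) (shortExact_toAbA hS)
      ((toAbA X).mapShortComplex.map (scS S c)) n e

lemma δ_apply (n : ℕ) (e : An.AnMod.H S.X₃ n) :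
    δ hS n e = e.comp (shortExact_toAbA hS).extClass rfl := rfl

lemma δ_nat {S' : ShortComplex (An.AnMod X)} (hS' : S'.ShortExact) (φ : S ⟶ S') (n : ℕ)
    (e : An.AnMod.H S.X₃ n) : δ hS' n (Hmap φ.τ₃ n e) = Hmap φ.τ₁ (n + 1) (δ hS n e) :=
  ExtLin.δ_nat (ZZ X) (shortExact_toAbA hS) (shortExact_toAbA hS')
      ((toAbA X).mapShortComplex.map φ) n e

include hS in
lemma exact₂ (n : ℕ) (e : An.AnMod.H S.X₂ n) : Hmap S.g n e = 0 ↔ ∃ e', Hmap S.f n e' = e :=
  ExtLin.exact₂ (ZZ X) (shortExact_toAbA hS) n e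

lemma exact₃ (n : ℕ) (e : An.AnMod.H S.X₃ n) : δ hS n e = 0 ↔ ∃ e', Hmap S.g n e' = e :=
  ExtLin.exact₃ (ZZ X) (shortExact_toAbA hS) n e

lemma exact₁ (n : ℕ) (e : An.AnMod.H S.X₁ (n + 1)) :
    Hmap S.f (n + 1) e = 0 ↔ ∃ e', δ hS n e' = e :=
  ExtLin.exact₁ (ZZ X) (shortExact_toAbA hS) n e

include hS in
lemma Hmap_f_injective : Function.Injective (Hmap S.f 0) := by
  rw [← LinearMap.ker_eq_bot, LinearMap.ker_eq_bot']
  exact fun e he => ExtLin.map_f_injective (ZZ X) (shortExact_toAbA hS) e he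

include hS in
lemma function_exact₂ (n : ℕ) : Function.Exact (Hmap S.f n) (Hmap S.g n) :=
  fun e => exact₂ hS n e

lemma function_exact₃ (n : ℕ) : Function.Exact (Hmap S.g n) (δ hS n) :=
  fun e => exact₃ hS n e

lemma function_exact₁ (n : ℕ) : Function.Exact (δ hS n) (Hmap S.f (n + 1)) :=
  fun e => exact₁ hS n e

end SES

/-! ### Degree zero -/

/-- `H^0` is the global sections, additive version. -/
def H0add (N : An.AnMod X) : An.AnMod.H N 0 ≃+ Sec N ⊤ :=
  Sheaf.H.equiv₀ (An.AnMod.toAb N) (isTerminalTop : IsTerminal (⊤ : Opens (An.top X)))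

lemma H0add_nat {N N' : An.AnMod X} (φ : N ⟶ N') (e : An.AnMod.H N 0) :
    H0add N' (Hmap φ 0 e) = app φ ⊤ (H0add N e) :=
  (Sheaf.H.equiv₀_naturality (isTerminalTop : IsTerminal (⊤ : Opens (An.top X)))
    ((toAbA X).map φ) e).symm

/-- `H^0` is the global sections. -/
def H0 (N : An.AnMod X) : An.AnMod.H N 0 ≃ₗ[ℂ] Sec N ⊤ :=
  (H0add N).toLinearEquiv fun c e => by
    rw [← Hmap_sc]
    exact H0add_nat (sc N c) e

lemma H0_nat {N N' : An.AnMod X} (φ : N ⟶ N') (e : An.AnMod.H N 0) :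
    H0 N' (Hmap φ 0 e) = app φ ⊤ (H0 N e) :=
  H0add_nat φ e

lemma H0_symm_nat {N N' : An.AnMod X} (φ : N ⟶ N') (s : Sec N ⊤) :
    Hmap φ 0 ((H0 N).symm s) = (H0 N').symm (app φ ⊤ s) := by
  rw [LinearEquiv.eq_symm_apply, H0_nat, LinearEquiv.apply_symm_apply]

end Groth.Agent.Gaga.H981.HMod
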