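import Mathlib.Algebra.Homology.DerivedCategory.Ext.ExactSequences

/-!
# Linear structures on `Ext` groups coming from scalar endomorphisms of the target

`σ : k →+* End Y` gives a `k`-module structure on `Ext Z Y n`; the postcomposition with morphisms commuting
with the scalars and the connecting maps of short exact sequences are linear.
-/

set_option autoImplicit false
universe u v w w'

open CategoryTheory Abelian

noncomputable section

namespace Groth.Agent.Gaga.H981.ExtLin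

variable {C : Type u} [Category.{v} C] [Abelian C] [HasExt.{w} C] (Z : C)
variable {k : Type w'} [CommRing k]

/-- Postcomposition with a morphism. -/
def map {Y Y' : C} (φ : Y ⟶ Y') (n : ℕ) : Ext Z Y n →+ Ext Z Y' n :=
  (Ext.mk₀ φ).postcomp Z (add_zero n)

lemma map_apply {Y Y' : C} (φ : Y ⟶ Y') (n : ℕ) (e : Ext Z Y n) :
    map Z φ n e = e.comp (Ext.mk₀ φ) (add_zero n) := rfl

lemma map_id {Y : C} (n : ℕ) (e : Ext Z Y n) : map Z (𝟙 Y) n e = e := by
  rw [map_apply, Ext.comp_mk₀_id]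

lemma map_comp {Y Y' Y'' : C} (φ : Y ⟶ Y') (ψ : Y' ⟶ Y'') (n : ℕ) (e : Ext Z Y n) :
    map Z (φ ≫ ψ) n e = map Z ψ n (map Z φ n e) := by
  rw [map_apply, map_apply, map_apply, ← Ext.mk₀_comp_mk₀, Ext.comp_assoc]
  omega

lemma map_add {Y Y' : C} (φ ψ : Y ⟶ Y') (n : ℕ) (e : Ext Z Y n) :
    map Z (φ + ψ) n e = map Z φ n e + map Z ψ n e := by
  rw [map_apply, map_apply, map_apply, Ext.mk₀_add, Ext.comp_add]

lemma map_zero' {Y Y' : C} (n : ℕ) (e : Ext Z Y n) : map Z (0 : Y ⟶ Y') n e = 0 := by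
  rw [map_apply, Ext.mk₀_zero, Ext.comp_zero]

/-- The module structure. -/
@[reducible] def mod {Y : C} (σ : k →+* End Y) (n : ℕ) : Module k (Ext Z Y n) where
  smul c e := map Z (σ c) n e
  one_smul e := by
    change map Z (σ 1) n e = e
    rw [map_one]
    exact map_id Z n e
  mul_smul c d e := by
    change map Z (σ (c * d)) n e = map Z (σ c) n (map Z (σ d) n e)
    rw [map_mul]
    exact map_comp Z (σ d) (σ c) n e
  smul_zero c := by
    change map Z (σ c) n 0 = 0
    rw [_root_.map_zero]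
  smul_add c e f := by
    change map Z (σ c) n (e + f) = map Z (σ c) n e + map Z (σ c) n f
    rw [_root_.map_add]
  add_smul c d e := by
    change map Z (σ (c + d)) n e = map Z (σ c) n e + map Z (σ d) n e
    rw [_root_.map_add]
    exact map_add Z (σ c) (σ d) n e
  zero_smul e := by
    change map Z (σ 0) n e = 0
    rw [_root_.map_zero]
    exact map_zero' Z n e

lemma map_comm {Y Y' : C} {a : Y ⟶ Y} {b : Y' ⟶ Y'} {φ : Y ⟶ Y'} (h : a ≫ φ = φ ≫ b) (n : ℕ)
    (e : Ext Z Y n) : map Z φ n (map Z a n e) = map Z b n (map Z φ n e) := by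
  rw [← map_comp, ← map_comp, h]

section SES

variable {S : ShortComplex C} (hS : S.ShortExact)

/-- The connecting map. -/
def δ (n : ℕ) : Ext Z S.X₃ n →+ Ext Z S.X₁ (n + 1) :=
  hS.extClass.postcomp Z rfl

lemma δ_apply (n : ℕ) (e : Ext Z S.X₃ n) : δ Z hS n e = e.comp hS.extClass rfl := rfl

lemma δ_nat {S' : ShortComplex C} (hS' : S'.ShortExact) (φ : S ⟶ S') (n : ℕ) (e : Ext Z S.X₃ n) :
    δ Z hS' n (map Z φ.τ₃ n e) = map Z φ.τ₁ (n + 1) (δ Z hS n e) := by
  rw [δ_apply, δ_apply, map_apply, map_apply,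
    Ext.comp_assoc _ _ _ (add_zero n) (zero_add 1) (by omega),
    Ext.comp_assoc _ _ _ rfl (add_zero 1) (by omega),
    ShortComplex.ShortExact.extClass_naturality hS hS' φ]

include hS in
lemma exact₂ (n : ℕ) (e : Ext Z S.X₂ n) : map Z S.g n e = 0 ↔ ∃ e', map Z S.f n e' = e := by
  constructor
  · intro h
    obtain ⟨y, hy⟩ := Ext.covariant_sequence_exact₂ _ hS e h
    exact ⟨y, hy⟩
  · rintro ⟨e', rfl⟩
    rw [← map_comp, S.zero, map_zero']

lemma exact₃ (n : ℕ) (e : Ext Z S.X₃ n) : δ Z hS n e = 0 ↔ ∃ e', map Z S.g n e' = e := by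
  constructor
  · intro h
    obtain ⟨y, hy⟩ := Ext.covariant_sequence_exact₃ _ hS e rfl h
    exact ⟨y, hy⟩
  · rintro ⟨e', rfl⟩
    rw [δ_apply, map_apply, Ext.comp_assoc _ _ _ (add_zero n) (zero_add 1) (by omega),
      hS.comp_extClass, Ext.comp_zero]

lemma exact₁ (n : ℕ) (e : Ext Z S.X₁ (n + 1)) :
    map Z S.f (n + 1) e = 0 ↔ ∃ e', δ Z hS n e' = e := by
  constructor
  · intro h
    obtain ⟨y, hy⟩ := Ext.covariant_sequence_exact₁ _ hS e h rfl
    exact ⟨y, hy⟩
  · rintro ⟨e', rfl⟩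
    rw [δ_apply, map_apply, Ext.comp_assoc _ _ _ rfl (add_zero 1) (by omega),
      hS.extClass_comp, Ext.comp_zero]

include hS in
lemma map_f_injective (e : Ext Z S.X₁ 0) (h : map Z S.f 0 e = 0) : e = 0 := by
  obtain ⟨g, rfl⟩ := (Ext.mk₀_bijective _ _).2 e
  rw [map_apply, Ext.mk₀_comp_mk₀] at h
  have h1 : g ≫ S.f = 0 := (Ext.mk₀_bijective _ _).1 (h.trans (Ext.mk₀_zero _ _).symm)
  have := hS.mono_f
  have h2 : g = 0 := by rw [← cancel_mono S.f, h1, Limits.zero_comp]
  rw [h2, Ext.mk₀_zero]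

end SES

end Groth.Agent.Gaga.H981.ExtLin
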