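import Groth.Prelude.Def_AnHol
import Groth.Agent.An.H871.Surj
import Mathlib.AlgebraicGeometry.Morphisms.UniversallyInjective
import Mathlib.AlgebraicGeometry.Morphisms.Immersion
import Mathlib.AlgebraicGeometry.Morphisms.FlatMono
import Mathlib.AlgebraicGeometry.Morphisms.Etale
import Mathlib.Geometry.RingedSpace.Stalks

/-!
# Etale morphisms which are bijective on complex points are isomorphisms; analytic isomorphisms

* `universallyInjective_of_injective` : injective on complex points implies universally injective;
* `isOpenImmersion_of_etale` : etale and injective on complex points implies open immersion;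
* `isIso_of_etale` : etale and bijective on complex points implies isomorphism;
* `homOfHol` : the morphism of analytic spaces defined by a holomorphic map;
* `isIso_anMap` : if `X(ℂ) → Y(ℂ)` is a homeomorphism with holomorphic inverse, then `f^an` is an
  isomorphism of presheafed spaces, in particular bijective on stalks.
-/

set_option autoImplicit false

open CategoryTheory AlgebraicGeometry Topology TopologicalSpace Opposite

noncomputable section

namespace Groth.Agent.Gaga.H981.IsoPts

open _root_.An Groth.Agent.An.H871.Basic Groth.Agent.An.H871.Surj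

variable {X Y : Scheme.{0}} [X.Over An.SC] [Y.Over An.SC]

/-- In a Jacobson space a locally closed subset containing all closed points is everything. -/
theorem eq_univ_of_isLocallyClosed {T : Type*} [TopologicalSpace T] [JacobsonSpace T] {S : Set T}
    (hS : IsLocallyClosed S) (h : closedPoints T ⊆ S) : S = Set.univ := by
  obtain ⟨U, Z, hU, hZ, rfl⟩ := hS
  have hZ' : Z = Set.univ := by
    have h1 : closure (closedPoints T) ⊆ Z :=
      hZ.closure_subset_iff.2 (h.trans Set.inter_subset_right)
    rwa [closure_closedPoints, Set.univ_subset_iff] at h1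
  have hU' : U = Set.univ := by
    by_contra hne
    have hne' : (Uᶜ).Nonempty := by
      rwa [Set.nonempty_compl]
    obtain ⟨z, hz1, hz2⟩ := nonempty_inter_closedPoints hne' hU.isClosed_compl.isLocallyClosed
    exact hz1 (h hz2).1
  rw [hU', hZ', Set.inter_univ]

/-- A morphism of schemes locally of finite type over `ℂ` which is injective on complex points is
universally injective. -/
theorem universallyInjective_of_injective (f : X ⟶ Y) [f.IsOver An.SC]
    [LocallyOfFiniteType (X ↘ An.SC)] [LocallyOfFiniteType (Y ↘ An.SC)]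
    (hf : Function.Injective (An.Pts.map f)) : UniversallyInjective f := by
  have hft : LocallyOfFiniteType f := locallyOfFiniteType_of_isOver f
  refine (UniversallyInjective.iff_diagonal f).2 ?_
  let p : Limits.pullback f f ⟶ SC := Limits.pullback.fst f f ≫ (X ↘ SC)
  have hJC : JacobsonSpace SC := inferInstanceAs (JacobsonSpace (Spec (CommRingCat.of ℂ)))
  have hJ : JacobsonSpace (Limits.pullback f f : Scheme) := LocallyOfFiniteType.jacobsonSpace p
  have hcl : closedPoints (Limits.pullback f f : Scheme) ⊆
      Set.range (Limits.pullback.diagonal f) := by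
    intro z hz
    let t : SC ⟶ Limits.pullback f f := pointOfClosedPoint (K := ℂ) p z hz
    have ht : t ≫ p = 𝟙 _ := pointOfClosedPoint_comp (K := ℂ) p z hz
    have ht' : (t ≫ Limits.pullback.fst f f) ≫ (X ↘ SC) = 𝟙 _ := by
      rw [Category.assoc]; exact ht
    have ht'' : (t ≫ Limits.pullback.snd f f) ≫ (X ↘ SC) = 𝟙 _ := by
      rw [← comp_over f SC, Category.assoc, ← Limits.pullback.condition_assoc, comp_over f SC]
      exact ht
    let x₁ : Pts X := ⟨t ≫ Limits.pullback.fst f f, ht'⟩
    let x₂ : Pts X := ⟨t ≫ Limits.pullback.snd f f, ht''⟩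
    have h12 : Pts.map f x₁ = Pts.map f x₂ := Subtype.ext (by
      change (t ≫ Limits.pullback.fst f f) ≫ f = (t ≫ Limits.pullback.snd f f) ≫ f
      rw [Category.assoc, Category.assoc, Limits.pullback.condition])
    have h := congrArg Subtype.val (hf h12)
    change t ≫ Limits.pullback.fst f f = t ≫ Limits.pullback.snd f f at h
    have e : t = (t ≫ Limits.pullback.fst f f) ≫ Limits.pullback.diagonal f := by
      apply Limits.pullback.hom_ext
      · simp
      · simp [h]
    refine ⟨(t ≫ Limits.pullback.fst f f) cpt, ?_⟩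
    rw [← Scheme.Hom.comp_apply, ← e]
    exact pointOfClosedPoint_apply (K := ℂ) p z hz _
  have := eq_univ_of_isLocallyClosed (Limits.pullback.diagonal f).isLocallyClosed_range hcl
  exact ⟨Set.range_eq_univ.1 this⟩

/-- An etale morphism which is injective on complex points is an open immersion. -/
theorem isOpenImmersion_of_etale (f : X ⟶ Y) [f.IsOver An.SC]
    [LocallyOfFiniteType (X ↘ An.SC)] [LocallyOfFiniteType (Y ↘ An.SC)] [Etale f]
    (hf : Function.Injective (An.Pts.map f)) : IsOpenImmersion f := by
  have := universallyInjective_of_injective f hf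
  have h1 : Surjective (Limits.pullback.diagonal f) :=
    (UniversallyInjective.iff_diagonal f).mp inferInstance
  have h2 : IsOpenImmersion (Limits.pullback.diagonal f) := inferInstance
  have h3 : IsIso (Limits.pullback.diagonal f) := by
    apply isIso_of_isOpenImmersion_of_opensRange_eq_top
    rw [← top_le_iff]
    intro x _
    obtain ⟨y, hy⟩ := h1.surj x
    exact ⟨y, hy⟩
  have h4 : Mono f := (Limits.pullback.isIso_diagonal_iff f).mp h3
  exact IsOpenImmersion.of_flat_of_mono f

/-- An etale morphism which is bijective on complex points is an isomorphism. -/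
theorem isIso_of_etale (f : X ⟶ Y) [f.IsOver An.SC]
    [LocallyOfFiniteType (X ↘ An.SC)] [LocallyOfFiniteType (Y ↘ An.SC)] [Etale f]
    (hf : Function.Bijective (An.Pts.map f)) : IsIso f := by
  have := isOpenImmersion_of_etale f hf.1
  apply isIso_of_isOpenImmersion_of_opensRange_eq_top
  by_contra hne
  have hJ : JacobsonSpace Y := jacobsonSpace Y
  have hne' : ((f.opensRange : Set Y)ᶜ).Nonempty := by
    rw [Set.nonempty_compl]
    intro h
    exact hne (Opens.ext (h.trans (Opens.coe_top).symm))
  obtain ⟨y, hy⟩ := exists_pts_mem_of_isClosed f.opensRange.isOpen.isClosed_compl hne'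
  obtain ⟨x, rfl⟩ := hf.2 y
  refine hy ?_
  rw [Pts.pt_map]
  exact ⟨x.pt, rfl⟩

/-- If `X(ℂ) → Y(ℂ)` is a homeomorphism whose inverse is holomorphic then pull-back of holomorphic
functions along `f` is bijective on every open set. -/
theorem bijective_anMapApp (f : X ⟶ Y) [f.IsOver An.SC]
    (e : An.Pts X ≃ₜ An.Pts Y) (he : ⇑e = An.Pts.map f)
    (hol : An.IsHolMap (⟨e.symm, e.symm.continuous⟩ : C(An.Pts Y, An.Pts X)))
    (V : Opens (top Y)) : Function.Bijective (An.anMapApp f V).hom := by
  constructor
  · intro g g' h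
    apply Subtype.ext
    funext y
    have hy : An.Pts.map f (e.symm y.1) = y.1 := by rw [← he]; exact e.apply_symm_apply _
    have hmem : e.symm y.1 ∈ (Opens.map (topMap f)).obj V := by
      change An.Pts.map f (e.symm y.1) ∈ V
      rw [hy]; exact y.2
    have h1 := congrFun (congrArg Subtype.val h) ⟨e.symm y.1, hmem⟩
    change g.1 ⟨An.Pts.map f (e.symm y.1), hmem⟩ = g'.1 ⟨An.Pts.map f (e.symm y.1), hmem⟩ at h1
    have h2 : (⟨An.Pts.map f (e.symm y.1), hmem⟩ : V) = y := Subtype.ext hy
    rwa [h2] at h1
  · intro g
    have h1 := hol ((Opens.map (topMap f)).obj V) g.1 g.2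
    have hV : ∀ y : An.Pts Y, y ∈ V → An.Pts.map f (e.symm y) ∈ V := fun y hy => by
      rw [← he, e.apply_symm_apply]; exact hy
    have i : V ⟶ (Opens.map (TopCat.ofHom (⟨e.symm, e.symm.continuous⟩ :
        C(An.Pts Y, An.Pts X)))).obj ((Opens.map (topMap f)).obj V) :=
      homOfLE (fun y hy => hV y hy)
    have h2 : (fun y : V => g.1 ⟨e.symm y.1, hV y.1 y.2⟩) ∈ holSub V :=
      holSub_res (X := Y) i (fun y => g.1 ⟨e.symm y.1, y.2⟩) h1
    refine ⟨⟨fun y => g.1 ⟨e.symm y.1, hV y.1 y.2⟩, h2⟩, ?_⟩
    apply Subtype.ext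
    funext x
    change g.1 ⟨e.symm (An.Pts.map f x.1), _⟩ = g.1 x
    refine congrArg g.1 (Subtype.ext ?_)
    change e.symm (An.Pts.map f x.1) = x.1
    rw [← he, e.symm_apply_apply]

/-- If `X(ℂ) → Y(ℂ)` is a homeomorphism whose inverse is holomorphic then `f^an` is an isomorphism
of presheafed spaces. -/
theorem isIso_anMap (f : X ⟶ Y) [f.IsOver An.SC]
    (e : An.Pts X ≃ₜ An.Pts Y) (he : ⇑e = An.Pts.map f)
    (hol : An.IsHolMap (⟨e.symm, e.symm.continuous⟩ : C(An.Pts Y, An.Pts X))) :
    IsIso (An.anMap f) := by
  have h1 : IsIso (An.anMap f).base := by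
    have : (An.anMap f).base = (TopCat.isoOfHomeo (X := top X) (Y := top Y) e).hom := by
      apply TopCat.ext
      intro x
      change An.Pts.map f x = e x
      rw [he]
    rw [this]
    infer_instance
  have h2 : IsIso (An.anMap f).c := by
    rw [NatTrans.isIso_iff_isIso_app]
    intro V
    have := bijective_anMapApp f e he hol (unop V)
    exact (ConcreteCategory.isIso_iff_bijective (An.anMapApp f (unop V))).2 this
  exact PresheafedSpace.isIso_of_components _

theorem bijective_stalkMap (f : X ⟶ Y) [f.IsOver An.SC]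
    (e : An.Pts X ≃ₜ An.Pts Y) (he : ⇑e = An.Pts.map f)
    (hol : An.IsHolMap (⟨e.symm, e.symm.continuous⟩ : C(An.Pts Y, An.Pts X))) (x : An.Pts X) :
    Function.Bijective (PresheafedSpace.Hom.stalkMap (An.anMap f) x).hom := by
  have := isIso_anMap f e he hol
  exact (ConcreteCategory.isIso_iff_bijective (PresheafedSpace.Hom.stalkMap (An.anMap f) x)).1
    inferInstance

/-- The easy direction: an isomorphism induces a homeomorphism whose inverse is holomorphic. -/
theorem exists_homeo_of_isIso (f : X ⟶ Y) [f.IsOver An.SC] [IsIso f] :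
    ∃ e : An.Pts X ≃ₜ An.Pts Y, (⇑e = An.Pts.map f) ∧
      An.IsHolMap (⟨e.symm, e.symm.continuous⟩ : C(An.Pts Y, An.Pts X)) := by
  have hg : (inv f).IsOver An.SC := ⟨by rw [IsIso.inv_comp_eq, comp_over f]⟩
  refine ⟨⟨⟨An.Pts.map f, An.Pts.map (inv f), fun x => ?_, fun y => ?_⟩,
    An.Pts.continuous_map f, An.Pts.continuous_map (inv f)⟩, rfl, ?_⟩
  · apply Subtype.ext
    simp [An.Pts.map]
  · apply Subtype.ext
    simp [An.Pts.map]
  · intro V g hgV
    exact holPred_comp (inv f) V g hgV

end Groth.Agent.Gaga.H981.IsoPts
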