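import Mathlib.Topology.Algebra.Module.FiniteDimension
import Mathlib.RingTheory.Filtration
import Mathlib.Analysis.Complex.Basic

/-!
# Closedness of stalk conditions (Krull)

* `isClosed_of_le` : a subspace of a topological vector space containing a closed subspace of finite
  codimension is closed;
* `isClosed_preimage_submodule` : let `γ : F → R` be a linear map from a topological vector space to
  a Noetherian local `ℂ`-algebra with `γ⁻¹(𝔪ᵏ)` closed and `R/𝔪ᵏ` finite dimensional for all `k`; then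
  for every `R`-submodule `M` of `ι → R` the set of `f : ι → F` with `γ ∘ f ∈ M` is closed.
-/

set_option autoImplicit false

open Filter Set Topology IsLocalRing

namespace Groth.Agent.Gaga.H981.LC

variable {𝕜 : Type*} [NontriviallyNormedField 𝕜] [CompleteSpace 𝕜]

/-- A subspace containing a closed subspace of finite codimension is closed. -/
theorem isClosed_of_le {F : Type*} [AddCommGroup F] [Module 𝕜 F] [TopologicalSpace F]
    [IsTopologicalAddGroup F] [ContinuousSMul 𝕜 F] (N M : Submodule 𝕜 F)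
    (hN : IsClosed (N : Set F)) [FiniteDimensional 𝕜 (F ⧸ N)] (h : N ≤ M) :
    IsClosed (M : Set F) := by
  have h3 : T3Space (F ⧸ N) := inferInstance
  have h1 : IsClosed ((M.map N.mkQ : Submodule 𝕜 (F ⧸ N)) : Set (F ⧸ N)) :=
    Submodule.closed_of_finiteDimensional _
  have h2 : (M : Set F) = N.mkQ ⁻¹' (M.map N.mkQ : Submodule 𝕜 (F ⧸ N)) := by
    have : M = (M.map N.mkQ).comap N.mkQ := by
      rw [Submodule.comap_map_mkQ, sup_eq_right.2 h]
    exact congrArg (fun s : Submodule 𝕜 F => (s : Set F)) this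
  rw [h2]
  exact h1.preimage continuous_quot_mk

/-- Krull's intersection theorem for a submodule of a finite module over a Noetherian local ring. -/
theorem eq_iInf_sup {R : Type*} [CommRing R] [IsLocalRing R] [IsNoetherianRing R] {P : Type*}
    [AddCommGroup P] [Module R P] [Module.Finite R P] (M : Submodule R P) :
    M = ⨅ k : ℕ, M ⊔ (maximalIdeal R ^ k) • (⊤ : Submodule R P) := by
  refine le_antisymm (le_iInf fun k => le_sup_left) fun x hx => ?_
  rw [Submodule.mem_iInf] at hx
  have h0 := Ideal.iInf_pow_smul_eq_bot_of_isLocalRing (M := P ⧸ M) (maximalIdeal R)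
    (Ideal.IsPrime.ne_top inferInstance)
  have h1 : M.mkQ x ∈ (⨅ i : ℕ, maximalIdeal R ^ i • ⊤ : Submodule R (P ⧸ M)) := by
    rw [Submodule.mem_iInf]
    intro k
    obtain ⟨a, ha, b, hb, rfl⟩ := Submodule.mem_sup.1 (hx k)
    rw [map_add, (Submodule.Quotient.mk_eq_zero M (x := a)).2 ha |> fun h => (h : M.mkQ a = 0),
      zero_add]
    have := Submodule.mem_map_of_mem (f := M.mkQ) hb
    rw [Submodule.map_smul''] at this
    exact Submodule.smul_mono le_rfl le_top this
  rw [h0, Submodule.mem_bot] at h1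
  exact (Submodule.Quotient.mk_eq_zero M).1 h1

/-- A vector with coordinates in an ideal `I` lies in `I • ⊤`. -/
theorem mem_smul_top {R : Type*} [CommRing R] {ι : Type*} [Finite ι] (I : Ideal R) (v : ι → R)
    (hv : ∀ i, v i ∈ I) : v ∈ I • (⊤ : Submodule R (ι → R)) := by
  classical
  have := Fintype.ofFinite ι
  rw [pi_eq_sum_univ' v]
  refine Submodule.sum_mem _ fun i _ => Submodule.smul_mem_smul (hv i) trivial

/-- Closedness of stalk conditions. -/
theorem isClosed_preimage_submodule {F : Type*} [AddCommGroup F] [Module 𝕜 F] [TopologicalSpace F]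
    [IsTopologicalAddGroup F] [ContinuousSMul 𝕜 F]
    {R : Type*} [CommRing R] [IsLocalRing R] [IsNoetherianRing R] [Algebra 𝕜 R]
    (γ : F →ₗ[𝕜] R) (hfin : ∀ k : ℕ, Module.Finite 𝕜 (R ⧸ maximalIdeal R ^ k))
    (hcl : ∀ k : ℕ, IsClosed {f : F | γ f ∈ maximalIdeal R ^ k})
    {ι : Type*} [Finite ι] (M : Submodule R (ι → R)) :
    IsClosed {f : ι → F | (fun i => γ (f i)) ∈ M} := by
  have := Fintype.ofFinite ι
  -- the map on vectors
  let Γ : (ι → F) →ₗ[𝕜] (ι → R) := γ.compLeft ι
  have key : ∀ k : ℕ, IsClosed ((((M ⊔ (maximalIdeal R ^ k) • (⊤ : Submodule R (ι → R))).restrictScalars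
      𝕜).comap Γ : Submodule 𝕜 (ι → F)) : Set (ι → F)) := by
    intro k
    let π : (ι → F) →ₗ[𝕜] (ι → R ⧸ maximalIdeal R ^ k) :=
      ((Ideal.Quotient.mkₐ 𝕜 (maximalIdeal R ^ k)).toLinearMap.compLeft ι) ∘ₗ Γ
    have hN : ∀ f : ι → F, f ∈ LinearMap.ker π ↔ ∀ i, γ (f i) ∈ maximalIdeal R ^ k := by
      intro f
      rw [LinearMap.mem_ker, funext_iff]
      refine forall_congr' fun i => ?_
      exact Ideal.Quotient.eq_zero_iff_mem
    have h1 : IsClosed ((LinearMap.ker π : Submodule 𝕜 (ι → F)) : Set (ι → F)) := by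
      have : ((LinearMap.ker π : Submodule 𝕜 (ι → F)) : Set (ι → F)) =
          ⋂ i, (fun f : ι → F => f i) ⁻¹' {f : F | γ f ∈ maximalIdeal R ^ k} := by
        ext f
        simp only [SetLike.mem_coe, mem_iInter, mem_preimage]
        exact hN f
      rw [this]
      exact isClosed_iInter fun i => (hcl k).preimage (continuous_apply i)
    have h2 : FiniteDimensional 𝕜 ((ι → F) ⧸ LinearMap.ker π) := by
      have := hfin k
      exact Module.Finite.equiv π.quotKerEquivRange.symm
    refine isClosed_of_le _ _ h1 fun f hf => ?_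
    rw [hN] at hf
    exact Submodule.mem_sup_right (mem_smul_top _ _ hf)
  have h3 : {f : ι → F | (fun i => γ (f i)) ∈ M} =
      ⋂ k : ℕ, ((((M ⊔ (maximalIdeal R ^ k) • (⊤ : Submodule R (ι → R))).restrictScalars
      𝕜).comap Γ : Submodule 𝕜 (ι → F)) : Set (ι → F)) := by
    ext f
    simp only [mem_iInter]
    change (fun i => γ (f i)) ∈ M ↔ _
    conv_lhs => rw [eq_iInf_sup M, Submodule.mem_iInf]
    exact Iff.rfl
  rw [h3]
  exact isClosed_iInter key

end Groth.Agent.Gaga.H981.LC
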