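import Groth.Agent.Gaga.H981.IsoPts

/-!
# S4315 from S4324

`isIso_iff` : if `f` is etale as soon as `f^an` is bijective on stalks (the hard direction of S4324),
then `f` is an isomorphism if and only if `f^an` is.
-/

set_option autoImplicit false

open CategoryTheory AlgebraicGeometry Topology TopologicalSpace

namespace Groth.Agent.Gaga.H981.S4315_of_S4324

open _root_.An Groth.Agent.Gaga.H981.IsoPts

/-- S4315, given the implication `(∀ x, stalk map bijective) → Etale f` for `f` itself. -/
theorem isIso_iff (X Y : Scheme.{0}) [X.Over An.SC] [Y.Over An.SC]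
    [LocallyOfFiniteType (X ↘ An.SC)] [LocallyOfFiniteType (Y ↘ An.SC)]
    (f : X ⟶ Y) [f.IsOver An.SC]
    (H : (∀ x : An.Pts X, Function.Bijective (PresheafedSpace.Hom.stalkMap (An.anMap f) x).hom) →
      Etale f) :
    IsIso f ↔ ∃ e : An.Pts X ≃ₜ An.Pts Y, (⇑e = An.Pts.map f) ∧
      An.IsHolMap (⟨e.symm, e.symm.continuous⟩ : C(An.Pts Y, An.Pts X)) := by
  constructor
  · intro h
    exact exists_homeo_of_isIso f
  · rintro ⟨e, he, hol⟩
    have h1 : Etale f := H (bijective_stalkMap f e he hol)
    exact isIso_of_etale f (he ▸ e.bijective)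

end Groth.Agent.Gaga.H981.S4315_of_S4324
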