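import Mathlib.Analysis.Complex.Schwarz
import Mathlib.Analysis.Calculus.UniformLimitsDeriv

/-!
# Cauchy estimates and uniform limits of holomorphic functions on normed spaces

For functions on open subsets of an arbitrary complex normed space `E`:
* `norm_fderiv_le` : Cauchy estimate for the derivative;
* `dist_le` : Lipschitz estimate;
* `norm_le_of_isBigO` : a bounded holomorphic function on a ball vanishing to order `k` at the centre
  is bounded by `M (‖z - c‖ / R) ^ k`;
* `differentiableOn_of_tendstoLocallyUniformlyOn` : locally uniform limits are holomorphic.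
-/

set_option autoImplicit false

open Filter Metric Set Topology

namespace Groth.Agent.Gaga.H981.Scv

variable {E : Type*} [NormedAddCommGroup E] [NormedSpace ℂ E]

omit [NormedSpace ℂ E] in
/-- A function bounded by `M` maps everything to a closed ball of radius `2 M` about any value. -/
lemma mapsTo_closedBall {F : E → ℂ} {c : E} {R M : ℝ} (hR : 0 < R)
    (hM : ∀ z ∈ ball c R, ‖F z‖ ≤ M) : MapsTo F (ball c R) (closedBall (F c) (2 * M)) := by
  intro z hz
  rw [mem_closedBall, dist_eq_norm]
  calc ‖F z - F c‖ ≤ ‖F z‖ + ‖F c‖ := norm_sub_le _ _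
    _ ≤ M + M := add_le_add (hM z hz) (hM c (mem_ball_self hR))
    _ = 2 * M := by ring

/-- Cauchy estimate: a holomorphic function on a ball of radius `R`, bounded by `M`, has derivative
at the centre of norm at most `2 M / R`. -/
theorem norm_fderiv_le {F : E → ℂ} {c : E} {R M : ℝ} (hR : 0 < R)
    (hd : DifferentiableOn ℂ F (ball c R)) (hM : ∀ z ∈ ball c R, ‖F z‖ ≤ M) :
    ‖fderiv ℂ F c‖ ≤ 2 * M / R :=
  Complex.norm_fderiv_le_div_of_mapsTo_ball hd (mapsTo_closedBall hR hM) hR

/-- Lipschitz estimate at the centre of a ball. -/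
theorem dist_le {F : E → ℂ} {c z : E} {R M : ℝ} (hR : 0 < R)
    (hd : DifferentiableOn ℂ F (ball c R)) (hM : ∀ z ∈ ball c R, ‖F z‖ ≤ M) (hz : z ∈ ball c R) :
    dist (F z) (F c) ≤ 2 * M / R * dist z c :=
  Complex.dist_le_div_mul_dist_of_mapsTo_ball hd (mapsTo_closedBall hR hM) hz

/-- Lipschitz estimate between two points of a smaller ball. -/
theorem dist_le' {F : E → ℂ} {c y z : E} {R M : ℝ} (hR : 0 < R)
    (hd : DifferentiableOn ℂ F (ball c R)) (hM : ∀ z ∈ ball c R, ‖F z‖ ≤ M)
    (hy : y ∈ ball c (R / 3)) (hz : z ∈ ball c (R / 3)) :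
    dist (F z) (F y) ≤ 2 * M / (R * (2 / 3)) * dist z y := by
  have hsub : ball y (R * (2 / 3)) ⊆ ball c R := by
    intro w hw
    rw [mem_ball] at *
    calc dist w c ≤ dist w y + dist y c := dist_triangle _ _ _
      _ < R * (2 / 3) + R / 3 := add_lt_add hw hy
      _ = R := by ring
  refine dist_le (by positivity) (hd.mono hsub) (fun w hw => hM w (hsub hw)) ?_
  rw [mem_ball] at *
  calc dist z y ≤ dist z c + dist c y := dist_triangle _ _ _
    _ < R / 3 + R / 3 := add_lt_add hz (by rwa [dist_comm])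
    _ = R * (2 / 3) := by ring

/-- A holomorphic function on a ball bounded by `M` and vanishing to order at least `k` at the centre
is bounded by `M (‖z - c‖ / R) ^ k`. -/
theorem norm_le_of_isBigO {F : E → ℂ} {c z : E} {R M : ℝ} {k : ℕ}
    (hd : DifferentiableOn ℂ F (ball c R)) (hM : ∀ z ∈ ball c R, ‖F z‖ ≤ M)
    (hk : F =O[𝓝 c] fun y => ‖y - c‖ ^ k) (hz : z ∈ ball c R) :
    ‖F z‖ ≤ M * (‖z - c‖ / R) ^ k := by
  rcases Nat.eq_zero_or_pos k with rfl | hpos
  · simpa using hM z hz
  obtain ⟨n, rfl⟩ : ∃ n, k = n + 1 := ⟨k - 1, by omega⟩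
  have h0 : F c = 0 := by
    obtain ⟨C, hC⟩ := hk.bound
    have := hC.self_of_nhds
    simpa using this
  have hlo : (fun w => F w - F c) =o[𝓝 c] fun w => ‖w - c‖ ^ n := by
    simp only [h0, sub_zero]
    refine hk.trans_isLittleO ?_
    have h1 : (fun w : E => ‖w - c‖) =o[𝓝 c] fun _ => (1 : ℝ) := by
      rw [Asymptotics.isLittleO_one_iff]
      have : Continuous fun w : E => ‖w - c‖ := by fun_prop
      simpa using this.tendsto c
    simpa [pow_succ] using (Asymptotics.isBigO_refl (fun w : E => ‖w - c‖ ^ n) (𝓝 c)).mul_isLittleO h1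
  have hmaps : MapsTo F (ball c R) (closedBall (F c) M) := by
    intro w hw
    rw [mem_closedBall, h0, dist_zero_right]
    exact hM w hw
  have := Complex.dist_le_mul_div_pow_of_mapsTo_ball_of_isLittleO hd hmaps hlo hz
  rwa [h0, dist_zero_right, dist_eq_norm] at this

omit [NormedSpace ℂ E] in
/-- Bounds on a ball give vanishing to order `k`. -/
theorem isBigO_of_norm_le {F : E → ℂ} {c : E} {R M : ℝ} {k : ℕ} (hR : 0 < R)
    (h : ∀ z ∈ ball c R, ‖F z‖ ≤ M * (‖z - c‖ / R) ^ k) :
    F =O[𝓝 c] fun y => ‖y - c‖ ^ k := by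
  refine Asymptotics.IsBigO.of_bound (M / R ^ k) ?_
  filter_upwards [ball_mem_nhds c hR] with z hz
  refine (h z hz).trans_eq ?_
  rw [norm_pow, norm_norm, div_pow]
  ring

/-- A uniform limit of holomorphic functions on an open subset of a complex normed space is
holomorphic. -/
theorem differentiableOn_of_tendstoUniformlyOn {ι : Type*} {l : Filter ι} [NeBot l]
    {F : ι → E → ℂ} {f : E → ℂ} {U : Set E} (hU : IsOpen U)
    (hF : ∀ i, DifferentiableOn ℂ (F i) U) (h : TendstoUniformlyOn F f l U) :
    DifferentiableOn ℂ f U := by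
  intro x hx
  obtain ⟨R, hR, hRU⟩ := Metric.isOpen_iff.1 hU x hx
  have hr : 0 < R / 2 := by positivity
  have hsub : ∀ y ∈ ball x (R / 2), ball y (R / 2) ⊆ U := by
    intro y hy w hw
    refine hRU ?_
    rw [mem_ball] at *
    calc dist w x ≤ dist w y + dist y x := dist_triangle _ _ _
      _ < R / 2 + R / 2 := add_lt_add hw hy
      _ = R := by ring
  have hsub' : ball x (R / 2) ⊆ U := (ball_subset_ball (by linarith)).trans hRU
  -- the derivatives are uniformly Cauchy on `ball x (R / 2)`
  have hC : UniformCauchySeqOn (fun n => fderiv ℂ (F n)) l (ball x (R / 2)) := by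
    intro u hu
    obtain ⟨ε, hε, hεu⟩ := Metric.mem_uniformity_dist.1 hu
    have h1 := h.uniformCauchySeqOn {p | dist p.1 p.2 < ε * (R / 2) / 4}
      (Metric.dist_mem_uniformity (by positivity))
    filter_upwards [h1] with n hn y hy
    refine hεu ?_
    have hd1 : DifferentiableOn ℂ (F n.1) (ball y (R / 2)) := (hF n.1).mono (hsub y hy)
    have hd2 : DifferentiableOn ℂ (F n.2) (ball y (R / 2)) := (hF n.2).mono (hsub y hy)
    have e : fderiv ℂ (F n.1) y - fderiv ℂ (F n.2) y = fderiv ℂ (F n.1 - F n.2) y :=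
      (fderiv_sub (hd1.differentiableAt (ball_mem_nhds _ hr))
        (hd2.differentiableAt (ball_mem_nhds _ hr))).symm
    rw [dist_eq_norm, e]
    have hb := norm_fderiv_le (M := ε * (R / 2) / 4) hr (hd1.sub hd2) (fun z hz => by
      have := hn z (hsub y hy hz)
      simp only [dist_eq_norm] at this
      exact this.le)
    refine hb.trans_lt ?_
    have : 2 * (ε * (R / 2) / 4) / (R / 2) = ε / 2 := by field_simp; ring
    rw [this]
    linarith
  -- the limit of the derivatives
  have hlim : ∀ y ∈ ball x (R / 2), ∃ g, Tendsto (fun n => fderiv ℂ (F n) y) l (𝓝 g) := by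
    intro y hy
    have : Cauchy (map (fun n => fderiv ℂ (F n) y) l) := hC.cauchy_map hy
    exact CompleteSpace.complete this
  choose! g' hg' using hlim
  have hunif : TendstoUniformlyOn (fun n => fderiv ℂ (F n)) g' l (ball x (R / 2)) :=
    hC.tendstoUniformlyOn_of_tendsto hg'
  have key : HasFDerivAt f (g' x) x := by
    refine hasFDerivAt_of_tendstoUniformlyOn (𝕜 := ℂ) isOpen_ball hunif (fun n y hy => ?_)
      (fun y hy => h.tendsto_at (hsub' hy)) (mem_ball_self hr)
    exact ((hF n).differentiableAt (hU.mem_nhds (hsub' hy))).hasFDerivAt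
  exact key.differentiableAt.differentiableWithinAt

/-- A limit of holomorphic functions, uniform near every point, is holomorphic. -/
theorem differentiableOn_of_forall_exists_nhds {ι : Type*} {l : Filter ι} [NeBot l]
    {F : ι → E → ℂ} {f : E → ℂ} {U : Set E} (hU : IsOpen U)
    (hF : ∀ i, DifferentiableOn ℂ (F i) U)
    (h : ∀ x ∈ U, ∃ s ∈ 𝓝 x, TendstoUniformlyOn F f l s) :
    DifferentiableOn ℂ f U := by
  intro x hx
  obtain ⟨s, hs, hsu⟩ := h x hx
  have h1 : IsOpen (interior s ∩ U) := isOpen_interior.inter hU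
  have h2 := differentiableOn_of_tendstoUniformlyOn h1
    (fun i => (hF i).mono inter_subset_right) (hsu.mono (inter_subset_left.trans interior_subset))
  exact (h2.differentiableAt (h1.mem_nhds ⟨mem_interior_iff_mem_nhds.2 hs, hx⟩)).differentiableWithinAt

/-- A locally uniform limit of holomorphic functions on an open subset of a locally compact complex
normed space is holomorphic. -/
theorem differentiableOn_of_tendstoLocallyUniformlyOn [LocallyCompactSpace E] {ι : Type*}
    {l : Filter ι} [NeBot l] {F : ι → E → ℂ} {f : E → ℂ} {U : Set E} (hU : IsOpen U)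
    (hF : ∀ i, DifferentiableOn ℂ (F i) U) (h : TendstoLocallyUniformlyOn F f l U) :
    DifferentiableOn ℂ f U := by
  refine differentiableOn_of_forall_exists_nhds (l := l) hU hF fun x hx => ?_
  obtain ⟨K, hK, hKU, hKc⟩ := local_compact_nhds (hU.mem_nhds hx)
  exact ⟨K, hK, (tendstoLocallyUniformlyOn_iff_forall_isCompact hU).1 h K hKU hKc⟩

end Groth.Agent.Gaga.H981.Scv
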